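import Cfsg.Agent.H541.Ux.Pieces

/-!
# S5716 (UM1): isometric blocks (helper541)

* `quad_iso` : quadratic spaces of minus type of the same dimension are isometric;
* `exists_isoE` : two nondegenerate irreducible blocks of the same dimension are isometric.
-/

set_option autoImplicit false

namespace Cfsg.Agent.H541.Ux

open Module Cfsg.Agent.H847.Bs Cfsg.Agent.H141.Ux Cfsg.Agent.LieClassical.OrthCore
open Cfsg.Agent.H440.Bs (perp mem_perp restr restr_apply)

section

variable {F : Type*} [Field F]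

/-- the standard space of plus type has plus type -/
theorem plusT_of_equiv {V : Type*} [AddCommGroup V] [Module F V] {Q : QuadraticForm F V} {m : ℕ}
    (e : (Fin m ⊕ Fin m → F) ≃ₗ[F] V) (he : ∀ u, Q (e u) = Cfsg.quadFormPlus m F u) : PlusT Q := by
  rw [Cfsg.Agent.H59.Bs.plusT_iff]
  let f : (Fin m → F) →ₗ[F] V :=
    e.toLinearMap ∘ₗ
      ((LinearEquiv.sumArrowLequivProdArrow (Fin m) (Fin m) F F).symm).toLinearMap ∘ₗ
        LinearMap.inl F (Fin m → F) (Fin m → F)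
  have hf : Function.Injective f := by
    intro x y h
    have h1 := (LinearEquiv.sumArrowLequivProdArrow (Fin m) (Fin m) F F).symm.injective (e.injective h)
    exact LinearMap.inl_injective h1
  refine ⟨LinearMap.range f, ?_, ?_⟩
  · rintro _ ⟨x, rfl⟩
    show Q (e ((LinearEquiv.sumArrowLequivProdArrow (Fin m) (Fin m) F F).symm (x, 0))) = 0
    rw [he]
    show ∑ i, _ * _ = (0 : F)
    refine Finset.sum_eq_zero fun i _ => ?_
    exact mul_zero _
  · rw [LinearMap.finrank_range_of_inj hf, ← e.finrank_eq, finrank_fintype_fun_eq_card, finrank_fintype_fun_eq_card,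
      Fintype.card_sum, Fintype.card_fin]
    ring

variable [Finite F]

/-- **quadratic spaces of minus type of the same dimension are isometric** -/
theorem quad_iso {V V' : Type*} [AddCommGroup V] [Module F V] [FiniteDimensional F V] [AddCommGroup V'] [Module F V']
    [FiniteDimensional F V'] {Q : QuadraticForm F V} {Q' : QuadraticForm F V'} (hQ : Nondeg Q) (hQ' : Nondeg Q')
    {m : ℕ} (hm : 1 ≤ m) (hd : finrank F V = 2 * m) (hd' : finrank F V' = 2 * m) (hP : ¬ PlusT Q) (hP' : ¬ PlusT Q') :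
    ∃ e : V ≃ₗ[F] V', ∀ x, Q' (e x) = Q x := by
  rcases Cfsg.Agent.H377.classify_all hm hd Q hQ with ⟨e, he⟩ | ⟨ζ, hζ, e, he⟩
  · exact absurd (plusT_of_equiv e he) hP
  rcases Cfsg.Agent.H377.classify_all hm hd' Q' hQ' with ⟨e', he'⟩ | ⟨ζ', hζ', e', he'⟩
  · exact absurd (plusT_of_equiv e' he') hP'
  obtain ⟨f, hf⟩ := Cfsg.Agent.H377.minus_congr (m - 1) hζ' hζ
  refine ⟨e.symm.trans (f.trans e'), fun x => ?_⟩
  show Q' (e' (f (e.symm x))) = Q x
  rw [he', hf, ← he, e.apply_symm_apply]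

end

section

variable {F V : Type} [Field F] [Finite F] [AddCommGroup V] [Module F V] [FiniteDimensional F V]

/-- the order of `q` modulo the primes dividing the order of `z` -/
theorem ord_q {e m r : ℕ} (h : Pp F e m) (hr : r.Prime) (hrm : r ∣ m) : orderOf ((Nat.card F : ℕ) : ZMod r) = e := by
  obtain ⟨p, hp⟩ := CharP.exists F
  have := Fintype.ofFinite F
  obtain ⟨f, hpp, hcard⟩ := FiniteField.card F p
  have hc : ringChar F = p := ringChar.eq F p
  have hq : Nat.card F = ringChar F ^ (f : ℕ) := by rw [Nat.card_eq_fintype_card, hcard, hc]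
  have h1 := h.2.2 r hr hrm f hq
  have hf : (f : ℕ) ≠ 0 := f.pos.ne'
  rw [hq, Nat.cast_pow, orderOf_pow' _ hf, h1, Nat.gcd_eq_right (dvd_mul_left (f : ℕ) e),
    Nat.mul_div_cancel _ (Nat.pos_of_ne_zero hf)]

variable {Φ : Frm F V} {e : ℕ} {y z : V ≃ₗ[F] V} {E : Submodule F V}

theorem invz (h : StE Φ e y E z) : Inv z E := inv_of_mem h.mem h.inv

theorem restr_pow {g : V ≃ₗ[F] V} {D : Submodule F V} (h : Inv g D) (n : ℕ) (x : D) :
    (((restr g h) ^ n) x : V) = (g ^ n) x := by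
  induction n generalizing x with
  | zero => rfl
  | succ n ih =>
    rw [pow_succ, pow_succ]
    show (((restr g h) ^ n) (restr g h x) : V) = (g ^ n) (g x)
    rw [ih, restr_apply]

theorem irr_top_of {g : V ≃ₗ[F] V} {D : Submodule F V} (hg : Inv g D) (hD : D ≠ ⊥)
    (h : ∀ W ≤ D, Inv g W → W = ⊥ ∨ W = D) : Irr (restr g hg) ⊤ := by
  refine ⟨fun _ _ => trivial, ?_, ?_⟩
  · intro h0
    apply hD
    rw [eq_bot_iff]
    intro x hx
    have h1 : (⟨x, hx⟩ : D) ∈ (⊤ : Submodule F D) := trivial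
    rw [h0, Submodule.mem_bot] at h1
    exact congrArg Subtype.val h1
  · intro Y _ hY
    have h1 : Inv g (Y.map D.subtype) := by
      rintro _ ⟨v, hv, rfl⟩
      exact ⟨restr g hg v, hY v hv, rfl⟩
    rcases h (Y.map D.subtype) (Submodule.map_subtype_le _ _) h1 with h2 | h2
    · left
      exact Cfsg.Agent.H440.Bs.eq_bot_of_map h2
    · right
      rw [eq_top_iff]
      intro v _
      have h3 : (v : V) ∈ Y.map D.subtype := by rw [h2]; exact v.2
      obtain ⟨w, hw, hwv⟩ := h3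
      rwa [← Subtype.ext hwv]

theorem ne_bot_of_pos {X : Submodule F V} (h : 0 < finrank F X) : X ≠ ⊥ := by
  rintro rfl
  rw [finrank_bot] at h
  exact lt_irrefl _ h

/-- the order of `z` divides the order of its restriction to the block -/
theorem order_dvd (hN : Φ.Nd) (h : StE Φ e y E z) : orderOf z ∣ orderOf (restr z (invz h)) := by
  rw [orderOf_dvd_iff_pow_eq_one]
  ext v
  obtain ⟨d, u, rfl⟩ := Cfsg.Agent.H440.Bs.exists_add' (Cfsg.Agent.H440.Bs.dec_perp Φ hN h.nd).compl v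
  have h1 : ∀ n : ℕ, (z ^ n) (u : V) = u := by
    intro n
    induction n with
    | zero => rfl
    | succ n ih =>
      rw [pow_succ]
      show (z ^ n) (z u) = u
      rw [h.fix u u.2, ih]
  rw [map_add, h1, ← restr_pow (invz h), pow_orderOf_eq_one]
  rfl

/-- an irreducible isometry of a quadratic space lives in even dimension -/
theorem even_of {Q : QuadraticForm F V} (hN : (frmQ Q).Nd) (he : 2 ≤ e) (hy : y ∈ (frmQ Q).Iso)
    (h : StE (frmQ Q) e y E z) : Even e := by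
  by_contra hodd
  rw [Nat.not_even_iff_odd] at hodd
  have hm1 : orderOf z ≠ 1 := by
    have := h.ord.1
    omega
  obtain ⟨r, hr, hrz⟩ := Nat.exists_prime_and_dvd hm1
  have hE : E ≠ ⊥ := ne_bot_of_pos (by rw [h.dim]; omega)
  have hz : z ∈ (frmQ Q).Iso := (Subgroup.zpowers_le.2 hy) h.mem
  have h1 := Cfsg.Agent.H84.RG.l10 F E e r (restr z (invz h)) he (irr_top_of (invz h) hE h.irr) hr
    (hrz.trans (order_dvd hN h)) (ord_q h.ord hr hrz) (fun a => a) (Or.inl ⟨fun _ => rfl, hodd⟩)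
    (fun x y => (frmQ Q).B x y) (fun x y w => (frmQ Q).add_left _ _ _) (fun x y w => (frmQ Q).add_right _ _ _)
    (fun a x y => (frmQ Q).smul_left _ _ _) (fun a x y => (frmQ Q).smul_right _ _ _)
    (fun x y => hz.1 _ _)
  apply hE
  rw [eq_bot_iff]
  intro x hx
  exact h.nd x hx fun w hw => h1 ⟨x, hx⟩ ⟨w, hw⟩

theorem not_plus {Q : QuadraticForm F V} (he : 3 ≤ e) (hy : y ∈ (frmQ Q).Iso) (h : StE (frmQ Q) e y E z) :
    ¬ PlusT (Q.comp E.subtype) := by
  have hE : E ≠ ⊥ := ne_bot_of_pos (by rw [h.dim]; omega)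
  have hz : z ∈ (frmQ Q).Iso := (Subgroup.zpowers_le.2 hy) h.mem
  have h1 := irr_top_of (invz h) hE h.irr
  refine Cfsg.Agent.H826.Geo.not_plus_of_irr (Cfsg.Agent.H42.Bs.nondeg_comp h.nd) (restr z (invz h))
    (fun Y hY => h1.min Y le_top hY) (c := 1) (fun v => ?_) (by rw [h.dim]; exact he)
  rw [one_mul]
  exact hz.2 v

/-- **isometric blocks** -/
theorem exists_isoE {G : Subgroup (V ≃ₗ[F] V)} {N t : ℕ} (hK : Kl Φ G N t) (he : 3 ≤ e) {y₀ z₀ : V ≃ₗ[F] V}
    {E₀ : Submodule F V} (hy₀ : y₀ ∈ G) (hy : y ∈ G) (h₀ : StE Φ e y₀ E₀ z₀) (h : StE Φ e y E z) :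
    ∃ j : E₀ ≃ₗ[F] E, (∀ x y : E₀, Φ.B (j x) (j y) = Φ.B x y) ∧ ∀ x : E₀, Φ.q (j x) = Φ.q x := by
  have hle := kl_le hK
  have hnd := kl_nd hK
  have hdim : finrank F E₀ = finrank F E := h₀.dim.trans h.dim.symm
  rcases hK with ⟨h1, -, -, -⟩ | ⟨r, h1, -, -, -⟩ | ⟨Q, -, rfl, -, -, -⟩
  · exact Cfsg.Agent.H59.Bs.exists_equiv (Cfsg.Agent.H42.Bs.isSp_on h1 h₀.nd) (Cfsg.Agent.H42.Bs.isSp_on h1 h.nd) hdim
  · obtain ⟨j, hj⟩ := Cfsg.Agent.H881.Bs.exists_isom (Cfsg.Agent.H42.Bs.isHerm_on h1 h₀.nd)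
      (Cfsg.Agent.H42.Bs.isHerm_on h1 h.nd) hdim
    exact ⟨j, hj, fun x => by rw [h1.q, h1.q]⟩
  · obtain ⟨m, hm⟩ := even_of hnd (by omega) (hle hy) h
    obtain ⟨j, hj⟩ := quad_iso (Cfsg.Agent.H42.Bs.nondeg_comp h₀.nd) (Cfsg.Agent.H42.Bs.nondeg_comp h.nd)
      (m := m) (by omega) (by rw [h₀.dim]; omega) (by rw [h.dim]; omega) (not_plus he (hle hy₀) h₀)
      (not_plus he (hle hy) h)
    have hj' : ∀ x : E₀, Q (j x) = Q x := hj
    refine ⟨j, fun x y => ?_, hj'⟩
    show QuadraticMap.polar Q (j x) (j y) = QuadraticMap.polar Q x y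
    have h2 : ((j x : E) : V) + (j y : E) = (j (x + y) : E) := by rw [map_add]; rfl
    rw [QuadraticMap.polar, QuadraticMap.polar, h2, hj', hj', hj']
    rfl

end

end Cfsg.Agent.H541.Ux
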