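import Mathlib

/-!
# S5716 (UM1): counting lemmas (helper541)

* `count` : elements attached to bad configurations of one orbit;
* `card_pre` : the preimage of a set under a surjective homomorphism.
-/

set_option autoImplicit false

namespace Cfsg.Agent.H541.Ux

/-- **first moment**: `P w y` is a relation between configurations and elements of `G`, compatible with conjugation, and all
configurations which occur are in the orbit of `w₀`. -/
theorem count {Γ W : Type*} [Group Γ] [Finite Γ] (act : Γ → W → W) (hmul : ∀ g h w, act (g * h) w = act g (act h w))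
    (hone : ∀ w, act 1 w = w) (G : Subgroup Γ) (w₀ : W) (P : W → Γ → Prop) (Bad : W → Prop)
    (hP : ∀ g ∈ G, ∀ w y, P w y → P (act g w) (g * y * g⁻¹)) (horb : ∀ y ∈ G, ∀ w, P w y → ∃ g ∈ G, w = act g w₀) :
    Nat.card {y // y ∈ G ∧ ∃ w, P w y ∧ Bad w} * Nat.card {h // h ∈ G ∧ act h w₀ = w₀} ≤
      Nat.card {g // g ∈ G ∧ Bad (act g w₀)} * Nat.card {y // y ∈ G ∧ P w₀ y} := by
  rw [← Nat.card_prod, ← Nat.card_prod]
  have h1 : ∀ y : {y // y ∈ G ∧ ∃ w, P w y ∧ Bad w}, ∃ g ∈ G, P (act g w₀) y ∧ Bad (act g w₀) := by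
    rintro ⟨y, hy, w, hw, hb⟩
    obtain ⟨g, hg, rfl⟩ := horb y hy w hw
    exact ⟨g, hg, hw, hb⟩
  choose g hg hgP hgB using h1
  have h2 : ∀ (y : {y // y ∈ G ∧ ∃ w, P w y ∧ Bad w}) (h : {h // h ∈ G ∧ act h w₀ = w₀}),
      act (g y * h) w₀ = act (g y) w₀ := fun y h => by rw [hmul, h.2.2]
  refine Nat.card_le_card_of_injective (fun p =>
    (⟨g p.1 * p.2, G.mul_mem (hg _) p.2.2.1, by rw [h2]; exact hgB _⟩,
      ⟨(g p.1 * p.2)⁻¹ * p.1 * (g p.1 * p.2), ?_, ?_⟩)) ?_
  · exact G.mul_mem (G.mul_mem (G.inv_mem (G.mul_mem (hg _) p.2.2.1)) p.1.2.1) (G.mul_mem (hg _) p.2.2.1)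
  · have h3 := hP (g p.1 * p.2)⁻¹ (G.inv_mem (G.mul_mem (hg _) p.2.2.1)) _ _ (hgP p.1)
    rw [inv_inv, ← h2 p.1 p.2, ← hmul, inv_mul_cancel, hone] at h3
    exact h3
  · rintro ⟨y, h⟩ ⟨y', h'⟩ he
    have e1 : g y * h = g y' * h' := congrArg Subtype.val (congrArg Prod.fst he)
    have e2 : (g y * h)⁻¹ * y * (g y * h) = (g y' * h')⁻¹ * y' * (g y' * h') :=
      congrArg Subtype.val (congrArg Prod.snd he)
    rw [← e1] at e2
    have e3 : (y : Γ) = y' := by simpa using e2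
    have e4 : y = y' := Subtype.ext e3
    subst e4
    have e5 : (h : Γ) = h' := mul_left_cancel e1
    exact Prod.ext rfl (Subtype.ext e5)

/-- the preimage of a set under a surjective homomorphism -/
theorem card_pre {S T : Type*} [Group S] [Group T] [Finite S] [Finite T] (f : S →* T) (hf : Function.Surjective f)
    (X : Set T) : Nat.card {s // f s ∈ X} * Nat.card T ≤ Nat.card X * Nat.card S := by
  rw [← Nat.card_prod, ← Nat.card_prod]
  choose σ hσ using hf
  refine Nat.card_le_card_of_injective (fun p => (⟨f p.1, p.1.2⟩, σ p.2 * ((σ (f p.1))⁻¹ * p.1))) ?_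
  rintro ⟨⟨s, hs⟩, t⟩ ⟨⟨s', hs'⟩, t'⟩ he
  have e1 : f s = f s' := congrArg Subtype.val (congrArg Prod.fst he)
  have e2 : σ t * ((σ (f s))⁻¹ * s) = σ t' * ((σ (f s'))⁻¹ * s') := congrArg Prod.snd he
  have e3 := congrArg f e2
  rw [map_mul, map_mul, map_mul, map_mul, map_inv, map_inv, hσ, hσ, hσ, hσ, inv_mul_cancel, inv_mul_cancel, mul_one,
    mul_one] at e3
  subst e3
  rw [e1] at e2
  have e4 : s = s' := mul_left_cancel (mul_left_cancel e2)
  subst e4
  rfl

end Cfsg.Agent.H541.Ux
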