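import Cfsg.Agent.H541.Ux.UM1
import Cfsg.Agent.H232.Ux.UTb

/-!
# S5716, task UM1 (helper541)
-/

set_option autoImplicit false

namespace Cfsg.Agent.H541.Ux

/-- **UM1**: the first moment of pairs of blocks in bad position -/
theorem um1 : Cfsg.Agent.H141.Ux.UM1 := um1_of Cfsg.Agent.H232.Ux.ut2b

end Cfsg.Agent.H541.Ux
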