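import Cfsg.Agent.H541.Ux.Key
import Cfsg.Agent.H84.RG.L10
import Cfsg.Agent.H826.Geo.Minus
import Cfsg.Agent.H377.Types
import Cfsg.Agent.H59.Bs.SpMinus
import Cfsg.Agent.H59.Bs.OType
import Cfsg.Agent.H881.Bs.HermForm
import Cfsg.Agent.H440.Bs.Iso

/-!
# S5716 (UM1): the configuration of two blocks, isometric blocks (helper541)

* `cfg_of` : a nondegenerate block `E` and a block `A ⊕ A'` of smaller dimension of the same element are orthogonal;
* `quad_iso` : quadratic spaces of minus type of the same dimension are isometric;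
* `exists_isoE` : two nondegenerate irreducible blocks of the same dimension are isometric.
-/

set_option autoImplicit false

namespace Cfsg.Agent.H541.Ux

open Module Cfsg.Agent.H847.Bs Cfsg.Agent.H141.Ux Cfsg.Agent.LieClassical.OrthCore
open Cfsg.Agent.H440.Bs (perp mem_perp restr restr_apply)

section

variable {F V : Type*} [Field F] [AddCommGroup V] [Module F V] {Φ : Frm F V} {G : Subgroup (V ≃ₗ[F] V)} {N t : ℕ}

theorem kl_le (h : Kl Φ G N t) : G ≤ Φ.Iso := by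
  rcases h with ⟨h1, rfl, h3, -⟩ | ⟨r, h1, rfl, h3, -⟩ | ⟨Q, h1, rfl, rfl, h4, -⟩
  · exact le_rfl
  · exact inf_le_left
  · intro g hg
    exact ⟨fun x y => polar_map (E_le_O hg) x y, E_le_O hg⟩

theorem kl_nd (h : Kl Φ G N t) : Φ.Nd := by
  rcases h with ⟨h1, rfl, h3, -⟩ | ⟨r, h1, rfl, h3, -⟩ | ⟨Q, h1, rfl, rfl, h4, -⟩
  · exact h1.nd
  · exact h1.nd
  · exact h1

variable [FiniteDimensional F V]

/-- the stabiliser of a subspace -/
def stabS (Y : Submodule F V) : Subgroup (V ≃ₗ[F] V) where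
  carrier := {g | Inv g Y}
  mul_mem' := fun hg hh => Cfsg.Agent.H440.Bs.Inv.mul hg hh
  one_mem' := fun _ hv => hv
  inv_mem' := fun hg => Cfsg.Agent.H440.Bs.Inv.inv hg

theorem inv_of_mem {y z : V ≃ₗ[F] V} (hz : z ∈ Subgroup.zpowers y) {Y : Submodule F V} (hy : Inv y Y) : Inv z Y :=
  (Subgroup.zpowers_le.2 (show y ∈ stabS Y from hy)) hz

theorem orth_of (hN : Φ.Nd) {y z : V ≃ₗ[F] V} (hy : y ∈ Φ.Iso) {e : ℕ} {E A : Submodule F V} (hE : StE Φ e y E z)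
    (hA : Inv y A) (hd : finrank F A < e) : Φ.Orth E A := by
  have h1 : Inv y (E ⊓ perp Φ A) := fun v hv => ⟨hE.inv v hv.1, Cfsg.Agent.H440.Bs.inv_perp hy hA v hv.2⟩
  rcases hE.irr _ inf_le_left (inv_of_mem hE.mem h1) with h2 | h2
  · exfalso
    have h3 := Submodule.finrank_sup_add_finrank_inf_eq E (perp Φ A)
    rw [h2, finrank_bot, hE.dim] at h3
    have h4 := Cfsg.Agent.H440.Bs.finrank_perp Φ hN A
    have h5 := Submodule.finrank_le (E ⊔ perp Φ A)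
    omega
  · intro x hx a ha
    rw [← h2] at hx
    exact hx.2 a ha

theorem cfg_of (h : Kl Φ G N t) {e d : ℕ} (hlt : d < e) {y : V ≃ₗ[F] V} (hy : y ∈ G) {E A A' : Submodule F V}
    {z z' : V ≃ₗ[F] V} (hE : StE Φ e y E z) (hA : StA Φ d y A A' z') : Cfg Φ e d E A A' where
  nd := hE.nd
  dim := hE.dim
  ti := hA.ti
  ti' := hA.ti'
  dimA := hA.dim
  dimA' := hA.dim'
  disj := hA.disj
  ndA := hA.nd
  orth := by
    have h1 := orth_of (kl_nd h) (kl_le h hy) hE hA.inv (by rw [hA.dim]; exact hlt)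
    have h2 := orth_of (kl_nd h) (kl_le h hy) hE hA.inv' (by rw [hA.dim']; exact hlt)
    intro x hx v hv
    obtain ⟨a, ha, a', ha', rfl⟩ := Submodule.mem_sup.1 hv
    rw [Φ.add_right, h1 x hx a ha, h2 x hx a' ha', add_zero]

/-! ### conjugation -/

theorem inv_conj {y g : V ≃ₗ[F] V} {Y : Submodule F V} (h : Inv y Y) : Inv (g * y * g⁻¹) (Y.map (g : V →ₗ[F] V)) :=
  Cfsg.Agent.H440.Bs.Inv.conj h

theorem mem_conj {y z g : V ≃ₗ[F] V} (h : z ∈ Subgroup.zpowers y) : g * z * g⁻¹ ∈ Subgroup.zpowers (g * y * g⁻¹) := by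
  obtain ⟨k, rfl⟩ := Subgroup.mem_zpowers_iff.1 h
  exact Subgroup.mem_zpowers_iff.2 ⟨k, conj_zpow⟩

theorem ndOn_conj {g : V ≃ₗ[F] V} (hg : g ∈ Φ.Iso) {Y : Submodule F V} (h : Φ.NdOn Y) :
    Φ.NdOn (Y.map (g : V →ₗ[F] V)) := by
  rintro _ ⟨v, hv, rfl⟩ h1
  have : v = 0 := h v hv fun w hw => by
    rw [← hg.1]
    exact h1 _ ⟨w, hw, rfl⟩
  rw [this, map_zero]

theorem ti_conj {g : V ≃ₗ[F] V} (hg : g ∈ Φ.Iso) {Y : Submodule F V} (h : Φ.TI Y) : Φ.TI (Y.map (g : V →ₗ[F] V)) := by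
  refine ⟨?_, ?_⟩
  · rintro _ ⟨v, hv, rfl⟩ _ ⟨w, hw, rfl⟩
    exact (hg.1 v w).trans (h.1 v hv w hw)
  · rintro _ ⟨v, hv, rfl⟩
    exact (hg.2 v).trans (h.2 v hv)

theorem inv_apply_apply (g : V ≃ₗ[F] V) (v : V) : g⁻¹ (g v) = v := g.symm_apply_apply v

theorem apply_inv_apply (g : V ≃ₗ[F] V) (v : V) : g (g⁻¹ v) = v := g.apply_symm_apply v

theorem fix_conj {g z : V ≃ₗ[F] V} (hg : g ∈ Φ.Iso) {Y : Submodule F V} (h : ∀ v ∈ perp Φ Y, z v = v) :
    ∀ v ∈ perp Φ (Y.map (g : V →ₗ[F] V)), (g * z * g⁻¹) v = v := by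
  intro v hv
  have h1 : g⁻¹ v ∈ perp Φ Y := fun x hx => by
    rw [← hg.1, apply_inv_apply]
    exact hv _ ⟨x, hx, rfl⟩
  show g (z (g⁻¹ v)) = v
  rw [h _ h1, apply_inv_apply]

theorem irr_conj' {g z : V ≃ₗ[F] V} {Y : Submodule F V} (h : ∀ W ≤ Y, Inv z W → W = ⊥ ∨ W = Y) :
    ∀ W ≤ Y.map (g : V →ₗ[F] V), Inv (g * z * g⁻¹) W → W = ⊥ ∨ W = Y.map (g : V →ₗ[F] V) := by
  intro W hW hWi
  have h1 : W.map ((g⁻¹ : V ≃ₗ[F] V) : V →ₗ[F] V) ≤ Y := by
    rintro _ ⟨v, hv, rfl⟩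
    obtain ⟨w, hw, rfl⟩ := hW hv
    show g⁻¹ (g w) ∈ Y
    rwa [inv_apply_apply]
  have h2 : Inv z (W.map ((g⁻¹ : V ≃ₗ[F] V) : V →ₗ[F] V)) := by
    have h3 := Cfsg.Agent.H440.Bs.Inv.conj (g := g⁻¹) hWi
    have h4 : g⁻¹ * (g * z * g⁻¹) * g⁻¹⁻¹ = z := by group
    rwa [h4] at h3
  rcases h _ h1 h2 with h3 | h3
  · left
    rw [← Cfsg.Agent.H440.Bs.map_inv_map g W, h3, Submodule.map_bot]
  · right
    rw [← Cfsg.Agent.H440.Bs.map_inv_map g W, h3]

theorem fpf_conj {g z : V ≃ₗ[F] V} {Y : Submodule F V} (h : ∀ v ∈ Y, z v = v → v = 0) :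
    ∀ v ∈ Y.map (g : V →ₗ[F] V), (g * z * g⁻¹) v = v → v = 0 := by
  rintro _ ⟨v, hv, rfl⟩ h1
  have h2 : g (z (g⁻¹ (g v))) = g v := h1
  rw [inv_apply_apply] at h2
  have h3 : v = 0 := h v hv (g.injective h2)
  rw [h3, map_zero]

theorem order_conj (g z : V ≃ₗ[F] V) : orderOf (g * z * g⁻¹) = orderOf z := by
  rw [← MulAut.conj_apply]
  exact orderOf_injective (MulAut.conj g).toMonoidHom (MulAut.conj g).injective z

theorem stE_conj {e : ℕ} {g y z : V ≃ₗ[F] V} (hg : g ∈ Φ.Iso) {E : Submodule F V} (h : StE Φ e y E z) :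
    StE Φ e (g * y * g⁻¹) (E.map (g : V →ₗ[F] V)) (g * z * g⁻¹) where
  mem := mem_conj h.mem
  nd := ndOn_conj hg h.nd
  dim := (LinearEquiv.finrank_map_eq g E).trans h.dim
  inv := inv_conj h.inv
  fix := fix_conj hg h.fix
  irr := irr_conj' h.irr
  fpf := fpf_conj h.fpf
  ord := by rw [order_conj]; exact h.ord

theorem stA_conj {e : ℕ} {g y z : V ≃ₗ[F] V} (hg : g ∈ Φ.Iso) {A A' : Submodule F V} (h : StA Φ e y A A' z) :
    StA Φ e (g * y * g⁻¹) (A.map (g : V →ₗ[F] V)) (A'.map (g : V →ₗ[F] V)) (g * z * g⁻¹) where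
  mem := mem_conj h.mem
  ti := ti_conj hg h.ti
  ti' := ti_conj hg h.ti'
  dim := (LinearEquiv.finrank_map_eq g A).trans h.dim
  dim' := (LinearEquiv.finrank_map_eq g A').trans h.dim'
  disj := by
    have h1 := h.disj
    rw [disjoint_iff] at h1 ⊢
    rw [← Submodule.map_inf _ g.injective, h1, Submodule.map_bot]
  nd := by
    rw [← Submodule.map_sup]
    exact ndOn_conj hg h.nd
  inv := inv_conj h.inv
  inv' := inv_conj h.inv'
  fix := by
    rw [← Submodule.map_sup]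
    exact fix_conj hg h.fix
  irr := irr_conj' h.irr
  irr' := irr_conj' h.irr'
  fpf := by
    rw [← Submodule.map_sup]
    exact fpf_conj h.fpf
  hom := by
    intro φ hφ
    let gA : A ≃ₗ[F] A.map (g : V →ₗ[F] V) := g.submoduleMap A
    let gA' : A' ≃ₗ[F] A'.map (g : V →ₗ[F] V) := g.submoduleMap A'
    have hgA : ∀ a : A, ((gA a : A.map (g : V →ₗ[F] V)) : V) = g a := fun a => rfl
    have hgA' : ∀ a : A', ((gA' a : A'.map (g : V →ₗ[F] V)) : V) = g a := fun a => rfl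
    let ψ : A →ₗ[F] A' := (gA'.symm : _ →ₗ[F] A') ∘ₗ φ ∘ₗ (gA : A →ₗ[F] _)
    have hψ : ∀ a : A, g (ψ a) = φ (gA a) := by
      intro a
      rw [← hgA']
      show ((gA' (gA'.symm (φ (gA a))) : A'.map (g : V →ₗ[F] V)) : V) = _
      rw [LinearEquiv.apply_symm_apply]
    have h1 : ψ = 0 := by
      apply h.hom
      intro a ha
      apply g.injective
      rw [hψ]
      have h2 := hφ (gA a) (by
        show g (z (g⁻¹ (g a))) ∈ A.map (g : V →ₗ[F] V)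
        rw [inv_apply_apply]
        exact ⟨_, ha, rfl⟩)
      have h3 : (⟨(g * z * g⁻¹) (gA a : V), by
          show g (z (g⁻¹ (g a))) ∈ A.map (g : V →ₗ[F] V)
          rw [inv_apply_apply]
          exact ⟨_, ha, rfl⟩⟩ : A.map (g : V →ₗ[F] V)) = gA ⟨z a, ha⟩ := by
        apply Subtype.ext
        show g (z (g⁻¹ (g a))) = g (z a)
        rw [inv_apply_apply]
      rw [h3] at h2
      rw [h2, ← hψ]
      show g (z (g⁻¹ (g (ψ a)))) = _
      rw [inv_apply_apply]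
    refine LinearMap.ext fun b => ?_
    have h2 : φ b = gA' (ψ (gA.symm b)) := by
      show φ b = gA' (gA'.symm (φ (gA (gA.symm b))))
      rw [LinearEquiv.apply_symm_apply, LinearEquiv.apply_symm_apply]
    rw [h2, h1, LinearMap.zero_apply, map_zero]
    rfl
  ord := by rw [order_conj]; exact h.ord

end

end Cfsg.Agent.H541.Ux
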